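import Cfsg.Agent.H951.Rs.Sec

/-!
# The orders (S3691, N2, helper951)

* `val_Isos` : `v_p |Isos B| = m² f`
* `HP e f₀` : hyperbolic pairs; `HP.X`, `HP.P` : the orthogonal complement and the projection
-/

set_option autoImplicit false

namespace Cfsg.Agent.H951.Rs

open Module Cfsg.Agent.H925.Rs

universe v w

variable {F : Type v} [Field F] {V : Type w} [AddCommGroup V] [Module F V] {B : LinearMap.BilinForm F V}

theorem val_Isos [Finite F] [FiniteDimensional F V] {p f m : ℕ} (hp : p.Prime) (hf : 1 ≤ f) (hF : Nat.card F = p ^ f)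
    (hB : ∀ x, B x x = 0) (hnd : ∀ x, (∀ y, B x y = 0) → x = 0) (hr : finrank F V = 2 * m) :
    (Nat.card (Isos B)).factorization p = m ^ 2 * f := by
  have : Fintype F := Fintype.ofFinite F
  have hc : Fintype.card F = p ^ f := by rw [← Nat.card_eq_fintype_card, hF]
  have hq1 : 1 < p ^ f := Nat.one_lt_pow (by omega) hp.one_lt
  have hnz : ∀ i : ℕ, ¬ p ∣ (p ^ f) ^ (2 * (i + 1)) - 1 := by
    intro i hd
    have h1 : p ∣ (p ^ f) ^ (2 * (i + 1)) := by
      rw [← pow_mul]
      exact dvd_pow_self p (Nat.mul_ne_zero (by omega) (by omega))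
    have h2 : 1 ≤ (p ^ f) ^ (2 * (i + 1)) := Nat.one_le_pow _ _ (by omega)
    have h3 := Nat.dvd_sub h1 hd
    rw [Nat.sub_sub_self h2] at h3
    exact hp.one_lt.ne' (Nat.dvd_one.1 h3)
  have hprod : ¬ p ∣ ∏ i ∈ Finset.range m, ((p ^ f) ^ (2 * (i + 1)) - 1) := by
    rw [hp.prime.dvd_finsetProd_iff]
    rintro ⟨i, -, hi⟩
    exact hnz i hi
  have hprod0 : ∏ i ∈ Finset.range m, ((p ^ f) ^ (2 * (i + 1)) - 1) ≠ 0 := fun h => hprod (by rw [h]; exact dvd_zero _)
  rw [card_Isos hB hnd hr, hc, Nat.factorization_mul (pow_ne_zero _ (by omega)) hprod0,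
    Finsupp.add_apply, Nat.factorization_eq_zero_of_not_dvd hprod, add_zero, ← pow_mul, hp.factorization_pow,
    Finsupp.single_eq_same]
  ring

/-- `|Isos| = |Isos of the complement of a plane| q^(2m-1) (q^(2m) - 1)` -/
theorem card_succ [Finite F] [FiniteDimensional F V] {q m : ℕ} (hF : Nat.card F = q) (hB : ∀ x, B x x = 0)
    (hnd : ∀ x, (∀ y, B x y = 0) → x = 0) (hr : finrank F V = 2 * (m + 1)) {X : Submodule F V}
    (hX : ∀ x : X, (∀ y : X, B.restrict X x y = 0) → x = 0) (hdX : finrank F X = 2 * m) :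
    Nat.card (Isos B) = Nat.card (Isos (B.restrict X)) * (q ^ (2 * m + 1) * (q ^ (2 * (m + 1)) - 1)) := by
  have : Fintype F := Fintype.ofFinite F
  have hc : Fintype.card F = q := by rw [← Nat.card_eq_fintype_card, hF]
  rw [card_Isos hB hnd hr, card_Isos (B := B.restrict X) (fun x => hB x) hX hdX, hc, Finset.prod_range_succ]
  rw [show (m + 1) ^ 2 = m ^ 2 + (2 * m + 1) by ring, pow_add]
  ring

/-- a hyperbolic pair -/
structure HP (B : LinearMap.BilinForm F V) (e f₀ : V) : Prop where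
  alt : ∀ x, B x x = 0
  nd : ∀ x, (∀ y, B x y = 0) → x = 0
  ef : B e f₀ = 1

namespace HP

variable {e f₀ : V} (h : HP B e f₀)

/-- the orthogonal complement -/
def X (B : LinearMap.BilinForm F V) (e f₀ : V) : Submodule F V where
  carrier := {v | B v e = 0 ∧ B v f₀ = 0}
  add_mem' {a b} ha hb := by
    refine ⟨?_, ?_⟩
    · rw [map_add, LinearMap.add_apply, ha.1, hb.1, add_zero]
    · rw [map_add, LinearMap.add_apply, ha.2, hb.2, add_zero]
  zero_mem' := by
    refine ⟨?_, ?_⟩ <;> rw [map_zero, LinearMap.zero_apply]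
  smul_mem' c x hx := by
    refine ⟨?_, ?_⟩
    · rw [map_smul, LinearMap.smul_apply, hx.1, smul_zero]
    · rw [map_smul, LinearMap.smul_apply, hx.2, smul_zero]

theorem mem_X {v : V} : v ∈ X B e f₀ ↔ B v e = 0 ∧ B v f₀ = 0 := Iff.rfl

include h

theorem fe : B f₀ e = -1 := by rw [swap h.alt, h.ef]

/-- the projection -/
noncomputable def P : V →ₗ[F] X B e f₀ where
  toFun v := ⟨v - B v f₀ • e + B v e • f₀, by
    refine ⟨?_, ?_⟩
    · simp only [map_add, map_sub, map_smul, LinearMap.add_apply, LinearMap.sub_apply, LinearMap.smul_apply, h.alt,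
        h.fe, smul_eq_mul]
      ring
    · simp only [map_add, map_sub, map_smul, LinearMap.add_apply, LinearMap.sub_apply, LinearMap.smul_apply, h.alt,
        h.ef, smul_eq_mul]
      ring⟩
  map_add' u v := Subtype.ext (by
    simp only [map_add, LinearMap.add_apply, Submodule.coe_add]
    module)
  map_smul' c v := Subtype.ext (by
    simp only [map_smul, LinearMap.smul_apply, smul_eq_mul, RingHom.id_apply, Submodule.coe_smul]
    module)

theorem P_apply (v : V) : (h.P v : V) = v - B v f₀ • e + B v e • f₀ := rfl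

theorem px (x : X B e f₀) : h.P x = x := Subtype.ext (by
  rw [P_apply, x.2.1, x.2.2, zero_smul, zero_smul, sub_zero, add_zero])

theorem sub_P (v : V) : v - (h.P v : V) = B v f₀ • e - B v e • f₀ := by
  rw [P_apply]
  module

theorem P_e : h.P e = 0 := Subtype.ext (by
  rw [P_apply, h.ef, h.alt, one_smul, zero_smul, add_zero, sub_self, ZeroMemClass.coe_zero])

theorem P_f : h.P f₀ = 0 := Subtype.ext (by
  rw [P_apply, h.alt, h.fe, zero_smul, sub_zero, neg_smul, one_smul, add_neg_cancel, ZeroMemClass.coe_zero])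

theorem e_ne : e ≠ 0 := by
  rintro rfl
  have := h.ef
  rw [map_zero, LinearMap.zero_apply] at this
  exact zero_ne_one this

/-- the form on the complement is nondegenerate -/
theorem nd_X : ∀ x : X B e f₀, (∀ y : X B e f₀, B.restrict (X B e f₀) x y = 0) → x = 0 := by
  intro x hx
  apply Subtype.ext
  refine h.nd _ fun v => ?_
  have h1 : v = (h.P v : V) + (B v f₀ • e - B v e • f₀) := by rw [← h.sub_P]; abel
  have h2 : B x (h.P v : V) = 0 := hx (h.P v)
  rw [h1, map_add, map_sub, map_smul, map_smul, x.2.1, x.2.2, h2, smul_zero, smul_zero, sub_zero, add_zero]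

theorem finrank_X [FiniteDimensional F V] {m : ℕ} (hV : finrank F V = 2 * (m + 1)) : finrank F (X B e f₀) = 2 * m := by
  let T : V →ₗ[F] F × F := (B.flip e).prod (B.flip f₀)
  have hT : ∀ v, T v = (B v e, B v f₀) := fun v => rfl
  have hk : LinearMap.ker T = X B e f₀ := by
    ext v
    rw [LinearMap.mem_ker, hT, Prod.mk_eq_zero]
    exact Iff.rfl
  have hs : LinearMap.range T = ⊤ := by
    rw [LinearMap.range_eq_top]
    rintro ⟨a, b⟩
    refine ⟨-(a • f₀) + b • e, ?_⟩
    rw [hT]
    simp only [map_add, map_neg, map_smul, LinearMap.add_apply, LinearMap.neg_apply, LinearMap.smul_apply, h.alt, h.ef,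
      h.fe, smul_eq_mul]
    refine Prod.ext ?_ ?_ <;> simp
  have h1 := LinearMap.finrank_range_add_finrank_ker T
  rw [hs, hk, finrank_top, Module.finrank_prod, Module.finrank_self, hV] at h1
  omega

/-- extension of isometries of the complement -/
theorem exists_ext' {y : X B e f₀ ≃ₗ[F] X B e f₀} (hy : y ∈ Isos (B.restrict (X B e f₀))) :
    ∃ g ∈ Isos B, (∀ x : X B e f₀, g x = y x) ∧ g e = e ∧ g f₀ = f₀ := by
  obtain ⟨g, hg, h1, h2⟩ := exists_ext (D := LinearMap.ker h.P) (LinearMap.isCompl_of_proj h.px) (fun x hx d hd => by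
    have h3 := h.sub_P d
    rw [LinearMap.mem_ker.1 hd, ZeroMemClass.coe_zero, sub_zero] at h3
    rw [h3, map_sub, map_smul, map_smul, hx.1, hx.2, smul_zero, smul_zero, sub_zero]) h.alt hy
  exact ⟨g, hg, h1, h2 e h.P_e, h2 f₀ h.P_f⟩

end HP

end Cfsg.Agent.H951.Rs
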